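import Cfsg.Agent.FT.PF6.B

/-! Translation between the coherence vocabulary of the Prelude (`IsCoherent`, `IsCoherenceSystem`,
`inducedIrrAbove`) and the ambient one (`Coherent`, `Subcoherent`, `seqIndD`). -/

set_option autoImplicit false
set_option linter.unusedSectionVars false

open Pointwise Cfsg Cfsg.Lib.Solv
open scoped ComplexConjugate

namespace Cfsg.Lib.FT

section Bridge

variable {L G : Type*} [Group L] [Fintype L] [Group G] [Fintype G]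

theorem isLinearIsometryOn_linear {E : Set (L → ℂ)} (ν : (L → ℂ) →ₗ[ℂ] (G → ℂ))
    (hiso : ∀ φ ∈ E, ∀ ψ ∈ E, dot ⊤ (ν φ) (ν ψ) = dot ⊤ φ ψ) (hvc : ∀ φ ∈ E, ν φ ∈ VC ⊤) :
    IsLinearIsometryOn E ν :=
  ⟨fun α _ β _ => map_add ν α β, fun α _ n => map_zsmul ν n α, fun α hα β hβ => by
    rw [← dot_top_eq_classInner, ← dot_top_eq_classInner, hiso α hα β hβ],
    fun α hα => mem_VC_top.1 (hvc α hα)⟩

theorem linIso_dot {E : Set (L → ℂ)} {τ : (L → ℂ) → (G → ℂ)} (h : IsLinearIsometryOn E τ) :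
    ∀ φ ∈ E, ∀ ψ ∈ E, dot ⊤ (τ φ) (τ ψ) = dot ⊤ φ ψ := fun φ hφ ψ hψ => by
  rw [dot_top_eq_classInner, dot_top_eq_classInner, h.2.2.1 φ hφ ψ hψ]

theorem linIso_vc {E : Set (L → ℂ)} {τ : (L → ℂ) → (G → ℂ)} (h : IsLinearIsometryOn E τ) :
    ∀ φ ∈ E, τ φ ∈ VC ⊤ := fun φ hφ => mem_VC_top.2 (h.2.2.2 φ hφ)

theorem linIso_exists_linear {E : Set (L → ℂ)} {τ : (L → ℂ) → (G → ℂ)}
    (h : IsLinearIsometryOn E τ) : ∃ ν : (L → ℂ) →ₗ[ℂ] (G → ℂ), (∀ φ ∈ E, ν φ = τ φ) ∧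
      (∀ φ ∈ E, ∀ ψ ∈ E, dot ⊤ (ν φ) (ν ψ) = dot ⊤ φ ψ) ∧ ∀ φ ∈ E, ν φ ∈ VC ⊤ := by
  obtain ⟨ν, hν⟩ := exists_linear_of_isoOn (linIso_dot h)
  exact ⟨ν, hν, fun φ hφ ψ hψ => by rw [hν φ hφ, hν ψ hψ, linIso_dot h φ hφ ψ hψ],
    fun φ hφ => by rw [hν φ hφ]; exact linIso_vc h φ hφ⟩

theorem isCoherent_of_coherent {S : Finset (L → ℂ)} {A : Set L} {τ : (L → ℂ) → (G → ℂ)}
    {τ' : (L → ℂ) →ₗ[ℂ] (G → ℂ)} (h : Coherent ⊤ ⊤ S A τ')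
    (hτ : ∀ α ∈ ZSon (S : Set (L → ℂ)) A, τ' α = τ α)
    (hne : ∃ α ∈ ZSon (S : Set (L → ℂ)) A, α ≠ 0) : IsCoherent (S : Set (L → ℂ)) A τ := by
  obtain ⟨ν, hν⟩ := h
  exact ⟨hne, ν, isLinearIsometryOn_linear ν hν.iso hν.vc,
    fun α hα => (hν.eq α hα).trans (hτ α hα)⟩

theorem coherent_of_isCoherent {S : Finset (L → ℂ)} {A : Set L} {τ : (L → ℂ) → (G → ℂ)}
    {τ' : (L → ℂ) →ₗ[ℂ] (G → ℂ)} (h : IsCoherent (S : Set (L → ℂ)) A τ)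
    (hτ : ∀ α ∈ ZSon (S : Set (L → ℂ)) A, τ' α = τ α) : Coherent ⊤ ⊤ S A τ' := by
  obtain ⟨-, τ₁, h1, h2⟩ := h
  obtain ⟨ν, hν, hiso, hvc⟩ := linIso_exists_linear h1
  exact ⟨ν, hiso, hvc, fun α hα => by rw [hν α hα.1, h2 α hα, hτ α hα]⟩

theorem coherenceSystem_pairOrtho {S : Set (L → ℂ)} {τ : (L → ℂ) → (G → ℂ)}
    {R : (L → ℂ) → Finset (G → ℂ)} (hS : IsCoherenceSystem S τ R) : PairOrtho ⊤ S :=
  ⟨fun h => hS.conj_ne 0 h (by funext x; simp [conjFun]), fun φ hφ ψ hψ h => by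
    rw [dot_top_eq_classInner, hS.orthogonal φ hφ ψ hψ h]⟩

theorem subcoherent_of_coherenceSystem {S : Finset (L → ℂ)} {τ : (L → ℂ) → (G → ℂ)}
    {R : (L → ℂ) → Finset (G → ℂ)} (hS : IsCoherenceSystem (S : Set (L → ℂ)) τ R) :
    ∃ τ' : (L → ℂ) →ₗ[ℂ] (G → ℂ), (∀ α ∈ ZSon (S : Set (L → ℂ)) {1}ᶜ, τ' α = τ α) ∧
      Subcoherent ⊤ ⊤ S τ' R := by
  obtain ⟨ν, hν, hiso, hvc⟩ := linIso_exists_linear hS.isometry
  have hchar : ∀ χ ∈ S, IsChar ⊤ χ := fun χ hχ => isChar_top.2 (hS.isCharacter χ hχ)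
  refine ⟨ν, hν, hchar, hS.conj_ne, hS.conj_mem, hiso, fun φ hφ => ?_,
    coherenceSystem_pairOrtho hS, fun ξ hξ α hα => mem_VC_top.2 (hS.virtual ξ hξ α hα),
    fun ξ hξ => orthoN_iff.2 fun α hα β hβ => ?_, fun ξ hξ => ?_, fun ξ hξ φ hφ h1 h2 α hα β hβ => ?_⟩
  · exact mem_VCon_compl_one.2 ⟨hvc φ hφ, by rw [hν φ hφ]; exact hS.map_one φ hφ⟩
  · rw [dot_top_eq_classInner, hS.orthonormal ξ hξ α hα β hβ]
    congr
  · rw [hν _ (sub_cj_mem_ZSon (hchar ξ hξ) hξ (hS.conj_mem ξ hξ))]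
    exact hS.sum_eq ξ hξ
  · rw [dot_top_eq_classInner] at h1 h2 ⊢
    exact hS.disjoint ξ hξ φ hφ h1 h2 α hα β hβ

theorem coherenceSystem_of_subcoherent {S : Finset (L → ℂ)} {τ : (L → ℂ) → (G → ℂ)}
    {τ' : (L → ℂ) →ₗ[ℂ] (G → ℂ)} {R : (L → ℂ) → Finset (G → ℂ)} (hne : S.Nonempty)
    (hτ : IsLinearIsometryOn (zspanOn (S : Set (L → ℂ)) {1}ᶜ) τ)
    (he : ∀ α ∈ ZSon (S : Set (L → ℂ)) {1}ᶜ, τ' α = τ α) (hS : Subcoherent ⊤ ⊤ S τ' R) :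
    IsCoherenceSystem (S : Set (L → ℂ)) τ R := by
  refine ⟨hne, fun χ hχ => isChar_top.1 (hS.char χ hχ), hS.cjClosed, hS.noReal, hτ,
    fun α hα => by rw [← he α hα]; exact hS.map_one hα, fun χ hχ φ hφ h => ?_,
    fun χ hχ α hα β hβ => ?_, fun χ hχ α hα => mem_VC_top.1 (hS.R_vc χ hχ α hα), fun χ hχ => ?_,
    fun χ hχ φ hφ h1 h2 α hα β hβ => ?_⟩
  · rw [← dot_top_eq_classInner, hS.dot_eq_zero hχ hφ h]
  · rw [← dot_top_eq_classInner, (hS.R_orthoN χ hχ).dot_eq_ite hα hβ]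
    congr
  · rw [← hS.R_sum χ hχ]
    exact (he _ (hS.sub_cj_mem hχ)).symm
  · rw [← dot_top_eq_classInner] at h1 h2 ⊢
    exact hS.R_ortho χ hχ φ hφ h1 h2 α hα β hβ

theorem coherenceSystem_exists {S : Set (L → ℂ)} {τ : (L → ℂ) → (G → ℂ)}
    {R : (L → ℂ) → Finset (G → ℂ)} (hS : IsCoherenceSystem S τ R) :
    ∃ (S' : Finset (L → ℂ)) (τ' : (L → ℂ) →ₗ[ℂ] (G → ℂ)), (S' : Set (L → ℂ)) = S ∧
      (∀ α ∈ ZSon S {1}ᶜ, τ' α = τ α) ∧ Subcoherent ⊤ ⊤ S' τ' R := by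
  lift S to Finset (L → ℂ) using (coherenceSystem_pairOrtho hS).finite
  obtain ⟨τ', h1, h2⟩ := subcoherent_of_coherenceSystem hS
  exact ⟨S, τ', rfl, h1, h2⟩

omit [Fintype G] in
/-- A non-empty subcoherent set carries a non-zero combination of degree zero. -/
theorem Subcoherent.exists_ne_zero [Finite G] {S S₁ : Finset (L → ℂ)} {T : Subgroup G}
    {τ : (L → ℂ) →ₗ[ℂ] (G → ℂ)} {R : (L → ℂ) → Finset (G → ℂ)} (hS : Subcoherent ⊤ T S τ R)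
    (h₁ : CjSubset S₁ S) (hne : S₁.Nonempty) :
    ∃ α ∈ ZSon (S₁ : Set (L → ℂ)) {1}ᶜ, α ≠ 0 := by
  obtain ⟨χ, hχ⟩ := hne
  exact ⟨_, (subset_subcoherent hS h₁).sub_cj_mem hχ,
    sub_ne_zero.2 (hS.noReal χ (h₁.sub hχ)).symm⟩

theorem inducedIrrAbove_eq (K : Subgroup L) {A : Subgroup L} (hA : A ≤ K) :
    inducedIrrAbove K A = (seqIndD K ⊤ K A : Set (L → ℂ)) := by
  ext φ
  rw [Finset.mem_coe, mem_seqIndD_iff]
  constructor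
  · rintro ⟨θ, h1, h2, h3, rfl⟩
    have hθ := extendByZero_mem_Irr.2 h1
    refine ⟨_, hθ, ((irr_char hθ).le_cfker_iff hA).2 fun x hx => ?_, fun h => h2 ?_,
      ind_extendByZero_top K θ⟩
    · exact (extendByZero_coe' K θ ⟨x, hA hx⟩).trans
        ((h3 ⟨x, hA hx⟩ hx).trans (extendByZero_coe' K θ 1).symm)
    · rw [← res_extendByZero_fun K θ, (irr_le_cfker_iff hθ).1 h, cf1_coe_fun]
  · rintro ⟨χ, h1, h2, h3, rfl⟩
    refine ⟨fun k => χ k, irr_isIrr h1, fun h => h3 ?_, fun a ha => cfker1 (h2 ha),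
      ind_top_eq_indFun K χ⟩
    rw [irr_le_cfker_iff h1]
    exact eq_of_res_eq (irr0 h1) (cf1_mem_CF K).1 (h.trans (cf1_coe_fun K).symm)

/-- The set-up of Peterfalvi's section 6 in the two vocabularies. -/
theorem inducedIrrAbove_setup {K : Subgroup L} {τ : (L → ℂ) → (G → ℂ)}
    {R : (L → ℂ) → Finset (G → ℂ)} (hS : IsCoherenceSystem (inducedIrrAbove K ⊥) τ R) :
    ∃ τ' : (L → ℂ) →ₗ[ℂ] (G → ℂ), Subcoherent ⊤ ⊤ (seqIndD K ⊤ K ⊥) τ' R ∧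
      (∀ S₁ : Finset (L → ℂ), CjSubset S₁ (seqIndD K ⊤ K ⊥) → S₁.Nonempty →
        Coherent ⊤ ⊤ S₁ {1}ᶜ τ' → IsCoherent (S₁ : Set (L → ℂ)) {1}ᶜ τ) ∧
      (∀ A ≤ K, IsCoherent (inducedIrrAbove K A) {1}ᶜ τ →
        Coherent ⊤ ⊤ (seqIndD K ⊤ K A) {1}ᶜ τ') ∧
      ∀ A ≤ K, (seqIndD K ⊤ K A).Nonempty → Coherent ⊤ ⊤ (seqIndD K ⊤ K A) {1}ᶜ τ' →
        IsCoherent (inducedIrrAbove K A) {1}ᶜ τ := by
  rw [inducedIrrAbove_eq K bot_le] at hS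
  obtain ⟨τ', h1, h2⟩ := subcoherent_of_coherenceSystem hS
  have key : ∀ S₁ : Finset (L → ℂ), CjSubset S₁ (seqIndD K ⊤ K ⊥) → S₁.Nonempty →
      Coherent ⊤ ⊤ S₁ {1}ᶜ τ' → IsCoherent (S₁ : Set (L → ℂ)) {1}ᶜ τ := fun S₁ hc hne h =>
    isCoherent_of_coherent h (fun α hα => h1 α (zson_mono (Finset.coe_subset.2 hc.sub) hα))
      (h2.exists_ne_zero hc hne)
  refine ⟨τ', h2, key, fun A hA h => ?_, fun A hA hne h => ?_⟩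
  · rw [inducedIrrAbove_eq K hA] at h
    exact coherent_of_isCoherent h fun α hα =>
      h1 α (zson_mono (Finset.coe_subset.2 (seqInd_sub le_rfl)) hα)
  · rw [inducedIrrAbove_eq K hA]
    exact key _ (seqInd_conjC_subset1 le_rfl) hne h

theorem nilMod_of_quotient {H M : Subgroup L} [(M.subgroupOf H).Normal]
    (h : Group.IsNilpotent (H ⧸ M.subgroupOf H)) : NilMod H M := by
  have h1 : Group.IsNilpotent (img (qmk H M) H) := inferInstance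
  rw [nilpotent_img_iff le_rfl] at h1
  exact h1.mono le_rfl (by
    rw [pre_bot_eq, QuotientGroup.ker_mk', Subgroup.subgroupOf_map_subtype]; exact inf_le_left)

end Bridge

end Cfsg.Lib.FT
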