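import Cfsg.Agent.FT.CohIrr
import Cfsg.Agent.FT.PF6
import Mathlib.GroupTheory.FixedPointFree

/-! Feit's coherence theorem for Frobenius groups and the Feit-Sibley theorem. -/

set_option autoImplicit false
set_option linter.unusedSectionVars false

open Pointwise Cfsg Cfsg.Lib.Solv
open scoped ComplexConjugate

namespace Cfsg.Lib.FT

section Frob

variable {G : Type*} [Group G] [Finite G] {K L H M Z : Subgroup G} {S : Finset (G → ℂ)}

theorem IsFrobKer.seqIndD_irr (frob : IsFrobKer L K) (hH : H ≤ K) : seqIndD K L H M ⊆ Irr L := by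
  intro φ hφ
  obtain ⟨θ, h1, h2, rfl⟩ := seqIndC1P.1 (seqInd_sub hH hφ)
  exact (irr_induced_Frobenius_ker frob h1 h2).1

theorem IsFrobKer.mem_seqIndD_iff (frob : IsFrobKer L K) (nsZL : Z ⊲ L) (sZK : Z ≤ K)
    (χ : G → ℂ) : χ ∈ seqIndD K L Z ⊥ ↔ χ ∈ Irr L ∧ ¬ Z ≤ cfker L χ :=
  seqIndD_irr_iff frob.normal nsZL sZK (frob.seqIndD_irr sZK) χ

theorem IsFrobKer.abelian_of_even (frob : IsFrobKer L K) (he : Even (K.relIndex L)) :
    IsMulCommutative K := by
  obtain ⟨W, hW⟩ := frob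
  rw [hW.sdprod.relIndex_left] at he
  obtain ⟨t, ht, ho⟩ := Cauchy Nat.prime_two he.two_dvd
  have ht1 : t ≠ 1 := fun h => by simp [h] at ho
  have h2 : t * t = 1 := by rw [← sq, ← ho, pow_orderOf_eq_one]
  have hinv : t⁻¹ = t := inv_eq_of_mul_eq_one_right h2
  refine ⟨⟨fun x y => ?_⟩⟩
  refine MonoidHom.FixedPointFree.commute_all_of_involutive
    (φ := (conjAutOfNorm (hW.norm ht)).toMonoidHom) (fun g hg => ?_) (fun g => ?_) x y
  · have : t * g * t⁻¹ = g := congrArg Subtype.val hg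
    exact Subtype.ext (hW.regular.eq_one ht ht1 g.2 (by rw [mul_inv_eq_iff_eq_mul] at this; exact this.symm))
  · refine Subtype.ext ?_
    change t * (t * g * t⁻¹) * t⁻¹ = g
    rw [hinv, ← mul_assoc, ← mul_assoc, h2, one_mul, mul_assoc, h2, mul_one]

theorem IsFrobKer.abelem_of_card (frob : IsFrobKer L K) (solK : Group.IsSolvable K)
    (h : Nat.card K = K.relIndex L + 1) : ∃ p : ℕ, p.Prime ∧ IsElementaryAbelian p K := by
  obtain ⟨V, hV, hc⟩ := chief_factor_exists (normal1 L) frob.normal (bot_lt_iff_ne_bot.2 frob.ne_bot)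
  have h1 := frob.succ_le_relIndex hc.lt hV (norms1 L) hc.normalV.norm
  rw [Subgroup.relIndex_bot_left, ← h] at h1
  obtain rfl := eq_of_le_of_card_le hV h1
  obtain ⟨p, hp, h2, h3⟩ := sol_chief_abelem solK hc
  exact ⟨p, hp, abelian_iff_der.2 (le_bot_iff.1 h2), fun a ha => Subgroup.mem_bot.1 (h3 a ha)⟩

theorem IsFrobKer.card_seqIndC1_eq_one (frob : IsFrobKer L K) (solK : Group.IsSolvable K) :
    (seqIndD K L K ⊥).card = 1 ↔ Nat.card K = K.relIndex L + 1 := by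
  have h1 := sum_seqIndD_deg_sq frob.normal frob.normal.norm (norms1 L) le_rfl bot_le
    (frob.seqIndD_irr le_rfl)
  rw [Subgroup.relIndex_bot_left] at h1
  have he := relIndex_pos K L
  have hK := cardG_gt0 K
  constructor
  · intro h
    obtain ⟨η, hη, hη1⟩ := exists_linInd frob.normal solK (bot_lt_iff_ne_bot.2 frob.ne_bot)
      (norms1 K)
    obtain ⟨a, ha⟩ := Finset.card_eq_one.1 h
    rw [ha, Finset.mem_singleton] at hη
    rw [ha, Finset.sum_singleton, ← hη, deg_eq_of hη1, sq] at h1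
    have := Nat.eq_of_mul_eq_mul_left he h1
    omega
  · intro h
    obtain ⟨p, -, hab, -⟩ := frob.abelem_of_card solK h
    rw [Finset.sum_congr rfl fun φ hφ => by
      rw [deg_eq_of (seqIndD_der_one frob.normal (abelian_iff_der.1 hab).le hφ)],
      Finset.sum_const, smul_eq_mul, h, Nat.add_sub_cancel, ← sq] at h1
    exact Nat.eq_of_mul_eq_mul_right (pow_pos he 2) (by rw [h1, one_mul])

theorem IsFrobKer.one_lt_card_seqIndC1 (frob : IsFrobKer L K) (solK : Group.IsSolvable K)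
    (h : Nat.card K ≠ K.relIndex L + 1) : 1 < (seqIndD K L K ⊥).card := by
  have h1 := mt (frob.card_seqIndC1_eq_one solK).1 h
  have h2 := (seqIndD_nonempty (L := L) (normal_refl K) (normal1 K)
    (bot_lt_iff_ne_bot.2 frob.ne_bot)).card_pos
  omega

theorem exists_ne_zero_of_one_lt_card (hS : S ⊆ Irr L) (h : 1 < S.card) :
    ∃ α ∈ ZSon (S : Set (G → ℂ)) {1}ᶜ, α ≠ 0 := by
  obtain ⟨φ, hφ, ψ, hψ, hne⟩ := Finset.one_lt_card.1 h
  refine ⟨_, pivot_mem_ZSon (zs_mem hφ) (zs_mem hψ) (irr_char (hS hφ)).exists_int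
    (irr_char (hS hψ)).exists_int, fun h0 => irr_one_ne_zero (hS hφ) ?_⟩
  have := congrArg (fun α => dot L α ψ) h0
  simpa [dot_sub_left, dot_smul_left, dot_irr_self (hS hψ), dot_irr_of_ne (hS hφ) (hS hψ) hne]
    using this

theorem normedTI_isoTo_seqInd {T : Subgroup G} (nsKL : K ⊲ L) (ti : NormedTI (sharp K) T L)
    (hS : S ⊆ seqIndT K L) :
    IsoTo L T (ZSon (S : Set (G → ℂ)) {1}ᶜ) (ind L T) (VCon T {1}ᶜ) :=
  (normedTI_Zisometry ti ((sharp_subset K).trans nsKL.le) (by simp)).mono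
    (fun _ hφ => zcharD1_seqInd_vchar nsKL hS hφ) subset_rfl

end Frob

section Feit

variable {G₁ G₂ : Type*} [Group G₁] [Group G₂] [Finite G₁] [Finite G₂] {K L : Subgroup G₁}
  {T : Subgroup G₂} {τ : (G₁ → ℂ) →ₗ[ℂ] (G₂ → ℂ)}

/-- Feit's coherence theorem. -/
theorem feit_coherence (frob : IsFrobKer L K) (nilK : Group.IsNilpotent K)
    (hτ : IsoTo L T (ZSon (seqIndD K L K ⊥ : Set (G₁ → ℂ)) {1}ᶜ) τ (VCon T {1}ᶜ)) :
    Coherent L T (seqIndD K L K ⊥) {1}ᶜ τ ∨ ∃ p : ℕ, p.Prime ∧ IsPGroup p K ∧ ⁅K, K⁆ ≠ ⊥ ∧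
      (⁅K, K⁆).relIndex K ≤ 4 * K.relIndex L ^ 2 + 1 := by
  have nsKL := frob.normal
  have solK := nilpotent_sol nilK
  have ltK : ⁅K, K⁆ < K := sol_der1_proper solK frob.ne_bot
  by_contra hcon
  rw [not_or] at hcon
  obtain ⟨hnc, hnp⟩ := hcon
  apply hnc
  suffices key : ∀ n : ℕ, ∀ A : Subgroup G₁, Nat.card A = n → A ⊲ L → A ≤ ⁅K, K⁆ →
      Coherent L T (seqIndD K L K A) {1}ᶜ τ → Coherent L T (seqIndD K L K ⊥) {1}ᶜ τ from
    key _ ⁅K, K⁆ rfl (normalR nsKL nsKL) le_rfl (irr_uniform_coherent (frob.seqIndD_irr le_rfl)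
      (fun _ hφ _ hψ => by rw [seqIndD_der_one nsKL le_rfl hφ, seqIndD_der_one nsKL le_rfl hψ])
      (hτ.mono (zson_mono (Finset.coe_subset.2 (seqInd_sub le_rfl))) subset_rfl))
  intro n
  induction n using Nat.strong_induction_on with
  | _ n ih =>
    intro A hn nsAL sAK' cohA
    by_cases hA : A = ⊥
    · rwa [hA] at cohA
    have ltAK := lt_of_le_of_lt sAK' ltK
    obtain ⟨B, -, hB⟩ := chief_factor_exists_top (normal1 L) nsAL (bot_lt_iff_ne_bot.2 hA)
    have cAK : ⁅A, K⁆ ≤ B := nil_stab_chief nsKL nilK hB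
    have he := relIndex_pos K L
    suffices h : ∃ D, D ≤ K ∧ ⁅D, K⁆ ≤ B ∧
        4 * K.relIndex L ^ 2 * D.relIndex K < (A.relIndex K - 1) ^ 2 by
      obtain ⟨D, h1, h2, h3⟩ := h
      exact ih _ (hn ▸ proper_card hB.lt) B rfl hB.normalW (hB.lt.le.trans sAK')
        ((irr_coherent_seqIndD_bound nsKL solK (frob.seqIndD_irr le_rfl) hτ nsAL ltAK h1 h2
          cohA).resolve_right (not_le.2 h3))
    obtain ⟨p, hp, -, hpB⟩ := sol_chief_abelem (solvableS ltAK.le solK) hB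
    have := Fact.mk hp
    by_cases hpK : IsPGroup p K
    · refine ⟨A, ltAK.le, cAK, ?_⟩
      have h1 : 4 * K.relIndex L ^ 2 + 1 < (⁅K, K⁆).relIndex K :=
        not_le.1 fun h => hnp ⟨p, hp, hpK, subG1_contra sAK' hA, h⟩
      have h2 : (⁅K, K⁆).relIndex K ≤ A.relIndex K :=
        Subgroup.relIndex_le_of_le_left sAK' (relIndex_pos A K).ne'
      obtain ⟨m, hm⟩ : ∃ m, A.relIndex K = m + 1 := ⟨_, (Nat.succ_pred_eq_of_pos (relIndex_pos A K)).symm⟩
      rw [hm, Nat.add_sub_cancel]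
      nlinarith
    have nsQ : piCoreOf ({p}ᶜ : Set ℕ) K ⊲ L := pcore_normal_trans _ nsKL
    have hQB : ¬ piCoreOf ({p}ᶜ : Set ℕ) K ≤ B := fun h => hpK (isPGroupS
      ((nilMod_of_nilpotent nilK _).le_of_le_sup_commutator (pcore_normal {p} K) le_rfl
        ((nilpotent_pcoreC {p} nilK).sup.ge.trans
          (sup_le_sup_left (h.trans (hB.lt.le.trans sAK')) _))) (pcore_isPGroup p K))
    obtain ⟨V, hV, hVc⟩ := chief_factor_exists hB.normalW (normalY hB.normalW nsQ)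
      (left_lt_sup.2 hQB)
    have sVK : V ≤ K := hV.trans (sup_le (hB.lt.le.trans ltAK.le) (pcore_sub _ _))
    have hVA : ¬ V ≤ A := fun h => by
      rcases hB.minimal V hVc.lt.le h hVc.normalV.norm with e | e
      · exact hVc.lt.ne' e
      · refine hB.lt.not_ge fun x hx => ?_
        obtain ⟨b, hb, q, hq, rfl⟩ :=
          (mem_sup_of_le_normalizer (nsQ.le.trans hB.normalW.norm)).1 (hV (e ▸ hx))
        have hqA : q ∈ A := (A.mul_mem_cancel_left (hB.lt.le hb)).1 hx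
        have hc : (orderOf q).Coprime p :=
          ((p'group_iff_coprime hp).1 (pcore_pgroup _ K)).coprime_dvd_left (order_dvdG hq)
        obtain ⟨m, hm⟩ := exists_pow_eq_self_of_coprime hc.symm
        exact B.mul_mem hb (hm ▸ B.pow_mem (hpB q hqA) m)
    have nsD : A ⊔ V ⊲ L := normalY nsAL hVc.normalV
    have cDK : ⁅A ⊔ V, K⁆ ≤ B := commutator_sup_left_le_of_le_normalizer
      (nsAL.le.trans hB.normalW.norm) (hVc.normalV.le.trans hB.normalW.norm) cAK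
      (nil_stab_chief nsKL nilK hVc)
    have sDK : A ⊔ V ≤ K := sup_le ltAK.le sVK
    have ltDK : A ⊔ V < K := lt_of_le_of_ne sDK fun e =>
      hB.lt.not_ge (sAK'.trans (by rwa [e] at cDK))
    refine ⟨A ⊔ V, sDK, cDK, ?_⟩
    have h1 := frob.succ_le_relIndex (left_lt_sup.2 hVA) sDK nsAL.norm nsD.norm
    have h2 := frob.succ_le_relIndex ltDK le_rfl nsD.norm nsKL.norm
    rw [← Subgroup.relIndex_mul_relIndex A (A ⊔ V) K le_sup_left sDK]
    generalize K.relIndex L = e at h1 h2 he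
    generalize A.relIndex (A ⊔ V) = z at h1
    generalize (A ⊔ V).relIndex K = w at h2
    have h3 : (e + 1) * (e + 1) ≤ z * w := Nat.mul_le_mul h1 h2
    obtain ⟨m, hm⟩ : ∃ m, z * w = m + 2 := ⟨z * w - 2, by nlinarith [Nat.sub_add_cancel (by nlinarith : 2 ≤ z * w)]⟩
    have h4 : 4 * e ^ 2 ≤ z * m := by
      have h5 : e ^ 2 + 2 * e ≤ m + 1 := by nlinarith
      have h6 : (e + 1) * (e ^ 2 + 2 * e) ≤ z * (m + 1) := Nat.mul_le_mul h1 h5
      obtain ⟨k, rfl⟩ : ∃ k, z = e + 1 + k := ⟨z - (e + 1), by omega⟩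
      obtain ⟨f, rfl⟩ : ∃ f, e = f + 1 := ⟨e - 1, by omega⟩
      nlinarith [Nat.zero_le (k * m), Nat.zero_le (f * f * f)]
    have h7 : 4 * e ^ 2 * w ≤ (m + 2) * m := by rw [← hm]; nlinarith
    rw [hm, show m + 2 - 1 = m + 1 from rfl]
    nlinarith

end Feit

section Transport

variable {G : Type*} [Group G] [Fintype G] {L : Subgroup G} [Fintype L]

omit [Fintype G] [Fintype L] in
theorem pull_id_eq (θ : L → ℂ) : pull (MonoidHom.id L) θ = extendByZero L θ := by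
  funext x
  by_cases hx : x ∈ L
  · exact (dif_pos hx).trans (extendByZero_coe' L θ ⟨x, hx⟩).symm
  · exact (dif_neg hx).trans (extendByZero_of_not_mem' θ hx).symm

/-- Coherence for induction from a subgroup, in the vocabulary of the Prelude. -/
theorem isCoherent_ind_of_coherent {S : Finset (G → ℂ)} (hS : ∀ φ ∈ S, φ ∈ CF L)
    (h : Coherent L ⊤ S {1}ᶜ (ind L ⊤)) (hne : ∃ α ∈ ZSon (S : Set (G → ℂ)) {1}ᶜ, α ≠ 0) :
    IsCoherent ((fun (φ : G → ℂ) (x : L) => φ x) '' S) {1}ᶜ (fun α : L → ℂ => indFun L α) := by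
  obtain ⟨ν, hν⟩ := h
  have hm : ∀ α ∈ ZS ((fun (φ : G → ℂ) (x : L) => φ x) '' S),
      pull (MonoidHom.id L) α ∈ ZS (S : Set (G → ℂ)) := fun α hα => map_mem_ZS _ (by
    rintro _ ⟨φ, hφ, rfl⟩
    rw [pull_id_eq, extendByZero_res_of_supp (hS φ hφ).1]
    exact zs_mem hφ) hα
  refine ⟨?_, ν ∘ₗ pull (MonoidHom.id L), isLinearIsometryOn_linear _ (fun α hα β hβ => ?_)
    (fun α hα => hν.vc _ (hm α hα)), fun α hα => ?_⟩
  · obtain ⟨α, hα, h0⟩ := hne
    refine ⟨fun x => α x, ⟨map_mem_ZS_image (LinearMap.funLeft ℂ ℂ (Subtype.val : L → G)) hα.1,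
      fun x hx => hα.2 x (by simpa using hx)⟩, fun e => h0 ?_⟩
    exact eq_of_res_eq (ZS_cf hS hα.1).1 (fun _ _ => rfl) e
  · rw [LinearMap.comp_apply, LinearMap.comp_apply, hν.iso _ (hm α hα) _ (hm β hβ), pull_id_eq,
      pull_id_eq, dot_extendByZero, dot_top_eq_classInner]
  · rw [LinearMap.comp_apply, hν.eq _ (mem_zsonC.2 ⟨hm α hα.1, ?_⟩), pull_id_eq,
      ind_extendByZero_top]
    rw [pull_id_eq]
    exact (extendByZero_coe' L α 1).trans (hα.2 1 (by simp))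

omit [Fintype L] in
theorem irr_not_ker_eq_image {Z : Subgroup G} (hZ : Z ≤ L) {S : Finset (G → ℂ)}
    (hS : ∀ χ, χ ∈ S ↔ χ ∈ Irr L ∧ ¬ Z ≤ cfker L χ) :
    {χ : L → ℂ | IsIrrCharacter L χ ∧ ∃ z : L, (z : G) ∈ Z ∧ χ z ≠ χ 1} =
      (fun (φ : G → ℂ) (x : L) => φ x) '' S := by
  ext χ
  constructor
  · rintro ⟨h1, z, hz, hne⟩
    refine ⟨_, (hS _).2 ⟨extendByZero_mem_Irr.2 h1, fun h => hne ?_⟩, res_extendByZero_fun L χ⟩
    exact (extendByZero_coe' L χ z).symm.trans ((cfker1 (h hz)).trans (extendByZero_coe' L χ 1))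
  · rintro ⟨φ, hφ, rfl⟩
    obtain ⟨h1, h2⟩ := (hS φ).1 hφ
    rw [(irr_char h1).le_cfker_iff hZ] at h2
    push Not at h2
    obtain ⟨z, hz, hne⟩ := h2
    exact ⟨irr_isIrr h1, ⟨z, hZ hz⟩, hz, hne⟩

omit [Fintype L] in
theorem card_irr_not_ker {Z : Subgroup G} (hZ : Z ≤ L) {S : Finset (G → ℂ)}
    (hS : ∀ χ, χ ∈ S ↔ χ ∈ Irr L ∧ ¬ Z ≤ cfker L χ) :
    Nat.card {χ : L → ℂ // IsIrrCharacter L χ ∧ ∃ z : L, (z : G) ∈ Z ∧ χ z ≠ χ 1} = S.card := by
  have h := congrArg Set.ncard (irr_not_ker_eq_image hZ hS)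
  rw [Set.InjOn.ncard_image (fun φ hφ ψ hψ e =>
    eq_of_res_eq (irr0 ((hS φ).1 hφ).1) (irr0 ((hS ψ).1 hψ).1) e), Set.ncard_coe_finset] at h
  exact h

theorem inducedIrrAbove_subgroupOf {H : Subgroup G} (hH : H ≤ L) :
    inducedIrrAbove (H.subgroupOf L) ⊥ =
      (fun (φ : G → ℂ) (x : L) => φ x) '' (seqIndD H L H ⊥) := by
  ext φ
  constructor
  · rintro ⟨θ, h1, h2, -, rfl⟩
    have e : ∀ n : H.subgroupOf L,
        extendByZero H (fun h => θ ((Subgroup.subgroupOfEquivOfLe hH).symm h)) ((n : L) : G) = θ n :=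
      fun n => extendByZero_coe' H _ (Subgroup.subgroupOfEquivOfLe hH n)
    have hθ : extendByZero H (fun h => θ ((Subgroup.subgroupOfEquivOfLe hH).symm h)) ∈ Irr H :=
      extendByZero_mem_Irr.2 (h1.comp_equiv (Subgroup.subgroupOfEquivOfLe hH).symm)
    refine ⟨_, seqIndC1P.2 ⟨_, hθ, fun h => h2 (funext fun n => ?_), rfl⟩, ?_⟩
    · rw [← e n, h]; exact cf1_of_mem (H := H) n.2
    · exact (ind_coe_eq_indFun hH _).trans (congrArg _ (funext e))
  · rintro ⟨_, hφ, rfl⟩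
    obtain ⟨θ, h1, h2, rfl⟩ := seqIndC1P.1 hφ
    refine ⟨_, irr_subgroupOf hH h1, fun h => h2 (cfun_ext (irr_cf h1) (cf1_mem_CF H)
      fun x hx => ?_), fun a ha => ?_, ind_coe_eq_indFun hH θ⟩
    · rw [cf1_of_mem hx]; exact congrFun h ⟨⟨x, hH hx⟩, hx⟩
    · rw [Subgroup.mem_bot.1 ha]; rfl

end Transport

section Sibley

variable {G : Type*} [Group G] [Finite G] {K : Subgroup G}

theorem isFrobKer_norm (hK : K ≠ ⊥) (hlt : K < 𝐍 K) (hC : ∀ k ∈ K, k ≠ 1 → 𝐂₁ k ≤ K) :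
    IsFrobKer (𝐍 K) K :=
  IsFrobKer.of_cent1 hK hlt (normalG K) fun x hx hx1 => inf_le_right.trans (hC x hx hx1)

/-- Coherence for a TI-subgroup with Frobenius normaliser, when the kernel has odd order. -/
theorem sibley_coherence_odd {L : Subgroup G} (frob : IsFrobKer L K) (nilK : Group.IsNilpotent K)
    (ti : NormedTI (sharp K) ⊤ L) (hodd : Odd (Nat.card K)) :
    Coherent L ⊤ (seqIndD K L K ⊥) {1}ᶜ (ind L ⊤) := by
  rcases Nat.even_or_odd (K.relIndex L) with he | he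
  · have hab := (abelian_iff_der.1 (frob.abelian_of_even he)).le
    exact irr_uniform_coherent (frob.seqIndD_irr le_rfl) (fun _ hφ _ hψ => by
      rw [seqIndD_der_one frob.normal hab hφ, seqIndD_der_one frob.normal hab hψ])
      (normedTI_isoTo_seqInd frob.normal ti (seqIndD_subT _ _ _ _))
  · refine Sibley_coherence_frob ?_ nilK ti frob
    have : Nat.card L = Nat.card K * K.relIndex L := by
      exact_mod_cast (cardC_mul_relIndex frob.normal.le).symm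
    rw [this]
    exact hodd.mul he

end Sibley

end Cfsg.Lib.FT
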