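import Cfsg.Agent.FT.CohBridge
import Cfsg.Agent.FT.CF
import Cfsg.Agent.FT.BG1.Chief

/-! Coherence for sets of irreducible characters (no parity hypothesis): Feit's criterion and
Feit's theorem for Frobenius groups. -/

set_option autoImplicit false
set_option linter.unusedSectionVars false

open Pointwise Cfsg Cfsg.Lib.Solv
open scoped ComplexConjugate

namespace Cfsg.Lib.FT

section Irr

variable {G₁ G₂ : Type*} [Group G₁] [Group G₂] [Finite G₁] [Finite G₂] {K L : Subgroup G₁}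
  {T : Subgroup G₂} {S S₀ : Finset (G₁ → ℂ)} {τ τ₁ : (G₁ → ℂ) →ₗ[ℂ] (G₂ → ℂ)} {χ ψ : G₁ → ℂ}

theorem coherentWith_singleton (h1 : χ 1 ≠ 0) {X : G₂ → ℂ} (hX : X ∈ VC T)
    (hn : dot T X X = dot L χ χ) : ∃ ν, CoherentWith L T {χ} {1}ᶜ τ ν ∧ ν χ = X := by
  obtain ⟨ν, h2, h3, h4⟩ := Zisometry_of_iso (L := L) (T := T)
    (S := (({χ} : Finset (G₁ → ℂ)) : Set (G₁ → ℂ))) (f := fun _ => X)
    (fun φ hφ ψ hψ => by
      rw [Finset.mem_singleton.1 hφ, Finset.mem_singleton.1 hψ, hn]) (fun _ _ => hX)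
  refine ⟨ν, ⟨h3, h4, fun φ hφ => ?_⟩, h2 χ (by simp)⟩
  rw [mem_zsonC, Finset.coe_singleton, mem_ZS_singleton] at hφ
  obtain ⟨⟨n, rfl⟩, h0⟩ := hφ
  rw [Pi.smul_apply, smul_eq_mul, mul_eq_zero] at h0
  rw [h0.resolve_right h1, zero_smul, map_zero, map_zero]

/-- Irreducible characters of equal degree are coherent. -/
theorem irr_uniform_coherent (hirr : S ⊆ Irr L) (hdeg : ∀ φ ∈ S, ∀ ψ ∈ S, φ 1 = ψ 1)
    (hτ : IsoTo L T (ZSon (S : Set (G₁ → ℂ)) {1}ᶜ) τ (VCon T {1}ᶜ)) :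
    Coherent L T S {1}ᶜ τ := by
  rcases S.eq_empty_or_nonempty with rfl | ⟨χ₀, h₀⟩
  · exact nil_coherent
  by_cases hc : 1 < S.card
  swap
  · rw [Finset.eq_singleton_iff_unique_mem.2 ⟨h₀, fun x hx =>
      Finset.card_le_one.1 (not_lt.1 hc) x hx χ₀ h₀⟩]
    exact (coherentWith_singleton (irr_one_ne_zero (hirr h₀)) (cf1_vchar T)
      (by rw [dot_cf1_cf1, dot_irr_self (hirr h₀)])).imp fun _ h => h.1
  obtain ⟨ν, h1, h2, ε, hε, h3⟩ := vchar_isometry_base hirr hc h₀ (fun χ hχ => hdeg χ hχ χ₀ h₀) hτ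
  have hεε : ε * conj ε = 1 := by rcases hε with rfl | rfl <;> simp
  refine (coherentWith_of_pivot hτ.1 (fun φ hφ => (hτ.2 φ hφ).1) h₀ (irr_one_ne_zero (hirr h₀))
    (dirr_vchar (sign_smul_mem_Dirr hε (irr_dirr (h1 χ₀ h₀)))) (fun η hη hne => ⟨1, ?_, ?_⟩)
    ?_).imp fun _ h => h.1
  · rw [hdeg η hη χ₀ h₀]; simp
  · rw [Int.cast_one, one_smul, h3 η hη, dot_smul_left, dot_smul_right, ← mul_assoc, hεε,
      dot_sub_left, dot_sub_left, dot_irr_self (h1 χ₀ h₀), dot_irr_self (hirr h₀),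
      dot_irr_of_ne (hirr hη) (hirr h₀) hne,
      dot_irr_of_ne (h1 η hη) (h1 χ₀ h₀) fun e => hne (h2 hη h₀ e), one_mul]
  · rw [dot_smul_left, dot_smul_right, ← mul_assoc, hεε, dot_irr_self (h1 χ₀ h₀),
      dot_irr_self (hirr h₀), one_mul]

/-- Feit's coherence criterion. -/
theorem feit_extend_coherent (hirr : S₀ ⊆ Irr L) (hχ : χ ∈ Irr L) (hχ₀ : χ ∉ S₀)
    (hτ : IsoTo L T (ZSon ((insert χ S₀ : Finset (G₁ → ℂ)) : Set (G₁ → ℂ)) {1}ᶜ) τ (VCon T {1}ᶜ))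
    (hc : Coherent L T S₀ {1}ᶜ τ) (hψ : ψ ∈ S₀) (hdvd : deg ψ ∣ deg χ)
    (hlt : 2 * deg ψ * deg χ < ∑ ξ ∈ S₀, deg ξ ^ 2) :
    Coherent L T (insert χ S₀) {1}ᶜ τ := by
  obtain ⟨τ₁, hc⟩ := hc
  obtain ⟨a, ha⟩ := hdvd
  have hsub : (S₀ : Set (G₁ → ℂ)) ⊆ (insert χ S₀ : Finset (G₁ → ℂ)) :=
    Finset.coe_subset.2 (Finset.subset_insert _ _)
  have h1 : χ 1 = ((a : ℂ) • ψ) 1 := by
    rw [irr_deg_eq hχ, Pi.smul_apply, irr_deg_eq (hirr hψ), ha]; push_cast; ring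
  have hβ : χ - (a : ℂ) • ψ ∈ ZSon ((insert χ S₀ : Finset (G₁ → ℂ)) : Set (G₁ → ℂ)) {1}ᶜ := by
    rw [mem_zsonC]
    exact ⟨Submodule.sub_mem _ (zs_mem (by simp)) (zs_natCast_smul _ (zs_mem (hsub hψ))),
      by rw [Pi.sub_apply, h1, sub_self]⟩
  have o1 : ∀ φ ∈ S₀, dot L χ φ = 0 := fun φ hφ =>
    dot_irr_of_ne hχ (hirr hφ) fun e => hχ₀ (e ▸ hφ)
  set X := τ (χ - (a : ℂ) • ψ) + (a : ℂ) • τ₁ ψ with hX
  have hXvc : X ∈ VC T := Submodule.add_mem _ (hτ.2 _ hβ).1 (zs_natCast_smul _ (hc.vc_map hψ))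
  have hint : ∀ ξ ∈ S₀, ∃ n : ℤ, dot T X (τ₁ ξ) = n := fun ξ hξ => vchar_dot_int hXvc (hc.vc_map hξ)
  choose! c hcX using hint
  have hp : ∀ ξ ∈ S₀, ψ 1 • ξ - ξ 1 • ψ ∈ ZSon (S₀ : Set (G₁ → ℂ)) {1}ᶜ := fun ξ hξ =>
    pivot_mem_ZSon (zs_mem hψ) (zs_mem hξ) (irr_char (hirr hψ)).exists_int
      (irr_char (hirr hξ)).exists_int
  have hkey : ∀ ξ ∈ S₀, (deg ψ : ℤ) * c ξ = deg ξ * c ψ := by
    intro ξ hξ
    have e := hτ.1 _ hβ _ (zson_mono hsub (hp ξ hξ))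
    have e1 := hcX ξ hξ
    have e2 := hcX ψ hψ
    rw [← hc.eq _ (hp ξ hξ), irr_deg_eq (hirr hψ), irr_deg_eq (hirr hξ), map_sub τ₁, map_smul,
      map_smul] at e
    simp only [dot_sub_left L, dot_sub_right, dot_smul_left, dot_smul_right, o1 ξ hξ, o1 ψ hψ,
      Complex.conj_natCast] at e
    rw [hX, dot_add_left, dot_smul_left, hc.dot_map hψ hξ] at e1
    rw [hX, dot_add_left, dot_smul_left, hc.dot_map hψ hψ] at e2
    have : (deg ψ : ℂ) * c ξ = deg ξ * c ψ := by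
      rw [← e1, ← e2]; linear_combination e
    exact_mod_cast this
  have hnX : nrm T X = 1 + 2 * a * c ψ := by
    have e2 := hcX ψ hψ
    rw [hX, dot_add_left, dot_smul_left, hc.dot_map hψ hψ, dot_irr_self (hirr hψ), mul_one,
      ← eq_sub_iff_add_eq] at e2
    rw [hX, nrm_add, hτ.1.nrm_eq hβ, nrm_sub_of_dot_eq_zero (by rw [dot_smul_right, o1 ψ hψ, mul_zero]),
      nrm_natCast_smul, nrm_natCast_smul, hc.nrm_map (zs_mem hψ), nrm_irr hχ, nrm_irr (hirr hψ),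
      dot_smul_right, e2]
    simp
    ring
  have hO : ∀ ξ ∈ S₀, ∀ ξ' ∈ S₀, dot T (τ₁ ξ) (τ₁ ξ') = if ξ = ξ' then 1 else 0 :=
    fun ξ hξ ξ' hξ' => by rw [hc.dot_map hξ hξ', dot_irr (hirr hξ) (hirr hξ')]
  set P := ∑ ξ ∈ S₀, (c ξ : ℂ) • τ₁ ξ with hP
  have hnP : nrm T P = ∑ ξ ∈ S₀, (c ξ : ℝ) ^ 2 := by
    rw [hP, nrm_sum_of_ortho]
    · refine Finset.sum_congr rfl fun ξ hξ => ?_
      rw [nrm_intCast_smul, hc.nrm_map (zs_mem hξ), nrm_irr (hirr hξ), mul_one]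
    · intro i hi j hj hij
      rw [dot_smul_left, dot_smul_right, hO i hi j hj, if_neg hij]
      simp
  have hXP : (dot T X P).re = ∑ ξ ∈ S₀, (c ξ : ℝ) ^ 2 := by
    rw [hP, dot_sum_right, Complex.re_sum]
    refine Finset.sum_congr rfl fun ξ hξ => ?_
    rw [dot_smul_right, hcX ξ hξ]
    simp [sq]
  have hd : (0 : ℤ) < deg ψ := by exact_mod_cast irr_deg_pos (hirr hψ)
  set N := ∑ ξ ∈ S₀, deg ξ ^ 2 with hN
  have hsum : (deg ψ : ℤ) ^ 2 * ∑ ξ ∈ S₀, c ξ ^ 2 = c ψ ^ 2 * N := by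
    rw [hN, Finset.mul_sum, Nat.cast_sum, Finset.mul_sum]
    refine Finset.sum_congr rfl fun ξ hξ => ?_
    rw [← mul_pow, hkey ξ hξ]; push_cast; ring
  have hlt' : 2 * a * (deg ψ : ℤ) ^ 2 < N := by
    rw [ha] at hlt
    have : ((2 * deg ψ * (deg ψ * a) : ℕ) : ℤ) < N := by exact_mod_cast hlt
    push_cast at this
    linarith
  have hm0 : c ψ = 0 := by
    by_contra hne
    have hm2 : 0 < c ψ ^ 2 := by positivity
    have h2 : 2 * a * c ψ < ∑ ξ ∈ S₀, c ξ ^ 2 := by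
      have h3 : (deg ψ : ℤ) ^ 2 * (2 * a * c ψ ^ 2) < (deg ψ : ℤ) ^ 2 * ∑ ξ ∈ S₀, c ξ ^ 2 := by
        rw [hsum]; nlinarith
      have h4 := lt_of_mul_lt_mul_left h3 (sq_nonneg _)
      have h5 := Int.le_self_sq (c ψ)
      nlinarith [Int.natCast_nonneg a]
    have h3 : X - P = 0 := by
      refine vchar_eq_zero_of_nrm_lt_one (Submodule.sub_mem _ hXvc
        (Submodule.sum_mem _ fun ξ hξ => zs_intCast_smul _ (hc.vc_map hξ))) ?_
      rw [nrm_sub, hnX, hnP, hXP]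
      have : ((2 * a * c ψ : ℤ) : ℝ) < ((∑ ξ ∈ S₀, c ξ ^ 2 : ℤ) : ℝ) := by exact_mod_cast h2
      push_cast at this
      linarith
    have h4 : ∀ ξ ∈ S₀, (deg ψ : ℂ) * τ₁ ξ 1 = deg ξ * τ₁ ψ 1 := fun ξ hξ => by
      have := (hτ.2 _ (zson_mono hsub (hp ξ hξ))).2 1 (by simp)
      rw [← hc.eq _ (hp ξ hξ), map_sub, map_smul, map_smul, irr_deg_eq (hirr hψ),
        irr_deg_eq (hirr hξ), Pi.sub_apply, sub_eq_zero] at this
      exact this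
    have h5 : (deg ψ : ℂ) ^ 2 * P 1 = c ψ * N * τ₁ ψ 1 := by
      rw [hP, Finset.sum_apply, hN, Nat.cast_sum, Finset.mul_sum, Finset.mul_sum, Finset.sum_mul]
      refine Finset.sum_congr rfl fun ξ hξ => ?_
      have e : (deg ψ : ℂ) * c ξ = deg ξ * c ψ := by exact_mod_cast hkey ξ hξ
      rw [Pi.smul_apply, smul_eq_mul]
      push_cast
      linear_combination (deg ψ : ℂ) * (c ξ) * h4 ξ hξ + (deg ξ : ℂ) * τ₁ ψ 1 * e
    rw [← sub_eq_zero.1 h3, hX, Pi.add_apply, (hτ.2 _ hβ).2 1 (by simp), zero_add, Pi.smul_apply,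
      smul_eq_mul, ← mul_assoc] at h5
    have h6 := mul_right_cancel₀ (dirr_one_ne_zero (hc.dirr hψ (hirr hψ))) h5
    have h7 : (deg ψ : ℤ) ^ 2 * a = c ψ * N := by exact_mod_cast h6
    have h8 : (0 : ℤ) ≤ (deg ψ : ℤ) ^ 2 * a := by positivity
    have h9 : (0 : ℤ) < N := by nlinarith
    rcases lt_or_gt_of_ne hne with h | h <;> nlinarith
  have hc0 : ∀ ξ ∈ S₀, dot T X (τ₁ ξ) = 0 := fun ξ hξ => by
    have := hkey ξ hξ
    rw [hm0, mul_zero, mul_eq_zero] at this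
    rw [hcX ξ hξ, this.resolve_left hd.ne', Int.cast_zero]
  obtain ⟨ν, hν, hνχ⟩ := coherentWith_singleton (L := L) (τ := τ) (irr_one_ne_zero hχ) hXvc (by
    rw [dot_self, hnX, hm0, dot_irr_self hχ]; simp)
  obtain ⟨μ, hμ, -⟩ := bridge_coherent' (χ := χ) (φ := (a : ℂ) • ψ) (fun φ hφ => by
      rw [← Finset.insert_eq, Finset.mem_insert] at hφ
      rcases hφ with rfl | h
      · exact (irr_char hχ).exists_int
      · exact (irr_char (hirr h)).exists_int) hν hc (Finset.disjoint_singleton_left.2 hχ₀)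
    (fun φ hφ ξ hξ => by rw [Finset.mem_singleton.1 hφ, hνχ, hc0 ξ hξ, o1 ξ hξ])
    (zs_mem (by simp)) (irr_one_ne_zero hχ) (zs_natCast_smul _ (zs_mem hψ)) h1
    (by rw [hνχ, hX, map_smul, add_sub_cancel_right])
  exact ⟨μ, hμ⟩

/-- Adjoining irreducible characters one at a time. -/
theorem feit_union_coherent {X : Finset (G₁ → ℂ)} (hirr : S ⊆ Irr L)
    (hτ : IsoTo L T (ZSon (S : Set (G₁ → ℂ)) {1}ᶜ) τ (VCon T {1}ᶜ)) (h₀ : S₀ ⊆ S) (hX : X ⊆ S)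
    (hc : Coherent L T S₀ {1}ᶜ τ) (hψ : ψ ∈ S₀)
    (h : ∀ χ ∈ X, deg ψ ∣ deg χ ∧ 2 * deg ψ * deg χ < ∑ ξ ∈ S₀, deg ξ ^ 2) :
    Coherent L T (X ∪ S₀) {1}ᶜ τ := by
  induction X using Finset.induction_on with
  | empty => rwa [Finset.empty_union]
  | insert χ X hχX ih =>
    have hXS : X ⊆ S := (Finset.subset_insert _ _).trans hX
    have h1 := ih hXS fun χ hχ => h χ (Finset.mem_insert_of_mem hχ)
    rw [Finset.insert_union]
    by_cases hm : χ ∈ X ∪ S₀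
    · rwa [Finset.insert_eq_of_mem hm]
    have hχS := hX (Finset.mem_insert_self _ _)
    have hU : X ∪ S₀ ⊆ S := Finset.union_subset hXS h₀
    obtain ⟨h2, h3⟩ := h χ (Finset.mem_insert_self _ _)
    exact feit_extend_coherent (hU.trans hirr) (hirr hχS) hm
      (hτ.mono (zson_mono (Finset.coe_subset.2 (Finset.insert_subset hχS hU))) subset_rfl) h1
      (Finset.mem_union_right _ hψ) h2
      (h3.trans_le (Finset.sum_le_sum_of_subset Finset.subset_union_right))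

theorem sum_seqIndD_deg_sq (nsKL : K ⊲ L) {H M : Subgroup G₁} (nHL : L ≤ 𝐍 H) (nML : L ≤ 𝐍 M)
    (hH : H ≤ K) (hMH : M ≤ H) (hirr : seqIndD K L H M ⊆ Irr L) :
    ∑ φ ∈ seqIndD K L H M, deg φ ^ 2 = H.relIndex L * (M.relIndex H - 1) := by
  have := sum_seqIndD_square nsKL nHL nML hH hMH
  rw [Finset.sum_congr rfl fun φ hφ => by rw [nrm_irr (hirr hφ), div_one]] at this
  have h2 : ((∑ φ ∈ seqIndD K L H M, deg φ ^ 2 : ℕ) : ℝ) =
      ((H.relIndex L * (M.relIndex H - 1) : ℕ) : ℝ) := by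
    rw [Nat.cast_mul, Nat.cast_sub (relIndex_pos M H)]
    push_cast
    exact this
  exact_mod_cast h2

/-- The analogue of Peterfalvi (6.2) when all induced characters are irreducible. -/
theorem irr_coherent_seqIndD_bound (nsKL : K ⊲ L) (solK : Group.IsSolvable K)
    (hirr : seqIndD K L K ⊥ ⊆ Irr L)
    (hτ : IsoTo L T (ZSon (seqIndD K L K ⊥ : Set (G₁ → ℂ)) {1}ᶜ) τ (VCon T {1}ᶜ))
    {A B D : Subgroup G₁} (nsAL : A ⊲ L) (ltAK : A < K) (sDK : D ≤ K) (cDK : ⁅D, K⁆ ≤ B)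
    (cohA : Coherent L T (seqIndD K L K A) {1}ᶜ τ) :
    Coherent L T (seqIndD K L K B) {1}ᶜ τ ∨
      (A.relIndex K - 1) ^ 2 ≤ 4 * K.relIndex L ^ 2 * D.relIndex K := by
  by_cases hle : (A.relIndex K - 1) ^ 2 ≤ 4 * K.relIndex L ^ 2 * D.relIndex K
  · exact Or.inr hle
  left
  obtain ⟨η, hη, hη1⟩ := exists_linInd nsKL solK ltAK (nsKL.le.trans nsAL.norm)
  refine subset_coherent Finset.subset_union_left (feit_union_coherent hirr hτ
    (seqInd_sub le_rfl) (seqInd_sub le_rfl) cohA hη fun χ hχ => ?_)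
  rw [deg_eq_of hη1]
  refine ⟨dvd_index_seqInd1 nsKL (seqIndD_subT _ _ _ _ hχ), ?_⟩
  rw [sum_seqIndD_deg_sq nsKL nsKL.norm nsAL.norm le_rfl ltAK.le
    ((seqInd_sub le_rfl).trans hirr)]
  obtain ⟨θ, hθ, hB, -, rfl⟩ := mem_seqIndD_iff.1 hχ
  have h1 := irr_deg_sq_le_quo hθ hB sDK le_rfl cDK
  rw [Subgroup.relIndex_self, one_pow, one_mul] at h1
  rw [(irr_char hθ).deg_ind nsKL.le, mul_comm 2, mul_assoc]
  refine Nat.mul_lt_mul_of_pos_left (lt_of_pow_lt_pow_left₀ 2 (Nat.zero_le _) ?_) (relIndex_pos K L)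
  refine lt_of_le_of_lt ?_ (not_le.1 hle)
  calc (2 * (K.relIndex L * deg θ)) ^ 2 = 4 * K.relIndex L ^ 2 * deg θ ^ 2 := by ring
    _ ≤ _ := Nat.mul_le_mul_left _ h1

omit [Finite G₂] in
theorem IsFrobKer.succ_le_relIndex (frob : IsFrobKer L K) {X Y : Subgroup G₁} (hXY : X < Y)
    (hY : Y ≤ K) (nX : L ≤ 𝐍 X) (nY : L ≤ 𝐍 Y) : K.relIndex L + 1 ≤ X.relIndex Y := by
  obtain ⟨H, hH⟩ := frob
  have he : K.relIndex L = Nat.card H := hH.sdprod.relIndex_left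
  have h1 := (hH.regular.mono hY le_rfl).card_dvd (hH.compl_le.trans nY)
  have h2 := (hH.regular.mono (hXY.le.trans hY) le_rfl).card_dvd (hH.compl_le.trans nX)
  have h3 := one_lt_relIndex_of_lt hXY
  have h4 : Nat.card Y = Nat.card X * X.relIndex Y := by
    exact_mod_cast (cardC_mul_relIndex hXY.le).symm
  have h5 : 0 < Nat.card X := Nat.card_pos
  have h6 : Nat.card H ∣ X.relIndex Y - 1 := by
    have : Nat.card Y - 1 = (Nat.card X - 1) * X.relIndex Y + (X.relIndex Y - 1) := by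
      rw [h4]
      obtain ⟨x, hx⟩ : ∃ x, Nat.card X = x + 1 := ⟨_, (Nat.succ_pred_eq_of_pos h5).symm⟩
      rw [hx, Nat.add_sub_cancel, add_mul, one_mul, Nat.add_sub_assoc h3.le]
    rw [this] at h1
    exact (Nat.dvd_add_right (h2.mul_right _)).1 h1
  have := Nat.le_of_dvd (by omega) h6
  omega

end Irr

end Cfsg.Lib.FT
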